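import Cfsg.Agent.H0.MWB4.D
import Cfsg.Agent.H0.TCWB43.Main
import Cfsg.Agent.H0.TCWB42.Main
import Cfsg.Agent.H0.TCWB41.Main
import Cfsg.Agent.H0.TCWB40.Main
set_option maxRecDepth 100000
set_option Elab.async false
set_option linter.unusedSectionVars false
namespace H0.MWB4
open H0 BN 
theorem rels : ∀ r ∈ B, ev R.p r = 1 := all_take_done (all_take_step (all_take_zero _ B) (rels_of_relsW R c0)) (by decide +kernel)
theorem defs_ok : DefsOK R.p defs 10 := defsOK_of_chk c1
variable {G : Type} [Group G] (P : Pres G 10 B)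
noncomputable def m : Model G := P.model defs R rels (by decide +kernel) defs_ok R_ge
include P
theorem mR : (m P).R = R := rfl
theorem g_eq {x : ℕ} (h : x < 10) : (m P).g x = P.g x := extG_out defs P.g 10 (Or.inl h)
theorem top : gen (m P).g (lets 10) = ⊤ := (gen_extG defs P.g 10 (by decide)).trans P.top
theorem grel : ∀ r ∈ B, ev (m P).g r = 1 := rels_extG defs 10 (by decide +kernel) P.rel
theorem hi : ∀ x < 10, (m P).g x * (m P).g (inv x) = 1 := inv_of_invChk (grel P) (by decide +kernel)
theorem upper : Finite G ∧ Nat.card G ≤ 384 := card_of_top (top P) ((chain_step (σ := [[0], [1], [2], [3], [4], [5], [6], [7], [8], [9]]) (n := 8) H0.TCWB40.main rfl rfl (rels_of_consChk (grel P) 10 inv (by decide +kernel)) (chain_step (σ := [[3], [4], [5], [6], [7], [8], [9]]) (n := 6) H0.TCWB41.main rfl rfl (rels_of_consChk (grel P) 10 inv (by decide +kernel)) (chain_step (σ := [[6], [7], [8], [9]]) (n := 4) H0.TCWB42.main rfl rfl (rels_of_consChk (grel P) 10 inv (by decide +kernel)) (chain_step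 (σ := [[9]]) (n := 2) H0.TCWB43.main rfl rfl (rels_of_consChk (grel P) 10 inv (by decide +kernel)) (chain_start _))))).imp_right fun h => h.trans (by decide +kernel))
theorem fin : Finite G := (upper P).1
theorem card_base : Nat.card G = 384 ∧ (m P).pst [6, 4, 2, 0] = ⊥ :=
  haveI := fin P
  (m P).card_done ((m P).card_step (lo := 6) (d := 2) (Model.via _ (mR P) (fun R => Model.fixW R [4, 2, 0] [[9]]) c8) ((m P).inOrb_grow [0] ((m P).inOrb_self _ 6) (Model.via _ (mR P) (fun R => Model.growW R [[9]] [0] (Nat.pow 2 6) (ival 6 2)) c9)) (Model.via _ (mR P) (fun R => Nat.ble (6 + 2) R.N) (by decide +kernel)) ((m P).card_step (lo := 4) (d := 4) (Model.via _ (mR P) (fun R => Model.fixW R [2, 0] [[6], [7]]) c6) ((m P).inOrb_grow [0, 1, 0] ((m P).inOrb_self _ 4) (Model.via _ (mR P) (fun R => Model.growW R [[6], [7]] [0, 1, 0] (Nat.pow 2 4) (ival 4 4)) c7)) (Model.via _ (mR P) (fun R => Nat.ble (4 + 4) R.N) (by decide +kernel)) ((m P).card_step (lo := 2) (d := 6) (Model.via _ (mR P) (fun R => Model.fixW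 R [0] [[3], [4]]) c4) ((m P).inOrb_grow [0, 1, 0] ((m P).inOrb_self _ 2) (Model.via _ (mR P) (fun R => Model.growW R [[3], [4]] [0, 1, 0] (Nat.pow 2 2) (ival 2 6)) c5)) (Model.via _ (mR P) (fun R => Nat.ble (2 + 6) R.N) (by decide +kernel)) ((m P).card_step (lo := 0) (d := 8) (Model.via _ (mR P) (fun R => Model.fixW R [] [[0], [1]]) c2) ((m P).inOrb_grow [0, 1, 0, 1] ((m P).inOrb_self _ 0) (Model.via _ (mR P) (fun R => Model.growW R [[0], [1]] [0, 1, 0, 1] (Nat.pow 2 0) (ival 0 8)) c3)) (Model.via _ (mR P) (fun R => Nat.ble (0 + 8) R.N) (by decide +kernel)) ((m P).card_start))))) (upper P).2 (by decide +kernel)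
theorem card : Nat.card G = 384 := (card_base P).1
theorem base : (m P).pst [6, 4, 2, 0] = ⊥ := (card_base P).2
theorem inj : Function.Injective (m P).φ := (m P).inj_of_base (base P)
end H0.MWB4
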